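import Cfsg.Agent.SLn.Unipotent
import Cfsg.Agent.PLocalBasics.NormalElemAbelian
import Cfsg.Agent.Hall.StructBatch3
import Cfsg.Agent.PGroup.Basic
import Mathlib.Combinatorics.SimpleGraph.Extremal.Turan

/-!
Generation bounds for `p`-groups: groups with central elements of order `p`, and subgroups of unitriangular groups.
-/

set_option autoImplicit false

namespace CfsgLib.PRankBound

open scoped commutatorElement

variable {p : ℕ} [Fact p.Prime]

/-- In a `p`-group, `p` odd, whose elements of order `p` are central, the `p`-th power determines an element up to order `p`. -/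
theorem pow_eq_imp (hp : p ≠ 2) : ∀ (n : ℕ) {K : Type*} [Group K] [Finite K], Nat.card K = n → IsPGroup p K →
    (∀ z : K, z ^ p = 1 → z ∈ Subgroup.center K) → ∀ x y : K, x ^ p = y ^ p → (x * y⁻¹) ^ p = 1 := by
  intro n
  induction n using Nat.strong_induction_on with
  | _ n ih =>
  intro K _ _ hn hK hZ x y e
  subst hn
  by_cases hxy : Commute x y
  · rw [(hxy.inv_right).mul_pow, inv_pow, e, mul_inv_cancel]
  have hne : Subgroup.zpowers x ≠ ⊤ := fun h => hxy (by
    obtain ⟨i, rfl⟩ := Subgroup.mem_zpowers_iff.mp (h.ge (Subgroup.mem_top y))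
    exact (Commute.refl x).zpow_right i)
  obtain ⟨M, hM, hxM⟩ := (IsCoatomic.eq_top_or_exists_le_coatom (Subgroup.zpowers x)).resolve_left hne
  haveI := hK.isNilpotent
  have hMn : M.Normal := Subgroup.NormalizerCondition.normal_of_coatom M Group.normalizerCondition_of_isNilpotent hM
  have hx : x ∈ M := hxM (Subgroup.mem_zpowers x)
  have hyx : y * x * y⁻¹ ∈ M := hMn.conj_mem x hx y
  have hlt : Nat.card M < Nat.card K := by
    refine lt_of_le_of_ne (Subgroup.card_le_card_group M) fun h => hM.1 (Subgroup.eq_top_of_card_eq M h)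
  have hc : (⟨y * x * y⁻¹, hyx⟩ * (⟨x, hx⟩ : M)⁻¹) ^ p = 1 :=
    ih _ hlt rfl (hK.to_subgroup M) (fun z hz => Subgroup.mem_center_iff.mpr fun g => Subtype.ext
      (Subgroup.mem_center_iff.mp (hZ z (by simpa using congrArg Subtype.val hz)) g)) _ _ (Subtype.ext (by
        show (y * x * y⁻¹) ^ p = x ^ p
        rw [conj_pow, e, ← pow_succ', pow_succ, mul_inv_cancel_right]))
  have hc' : ⁅y, x⁆ ^ p = 1 := by
    have := congrArg Subtype.val hc
    simpa [commutatorElement_def, mul_assoc] using this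
  have hcen := hZ _ hc'
  have h2 : ⁅y⁻¹, x⁆ = ⁅y, x⁆⁻¹ := by
    have : ⁅y⁻¹, x⁆ = y⁻¹ * ⁅y, x⁆⁻¹ * y := by simp only [commutatorElement_def]; group
    rw [this, mul_assoc, ← Subgroup.mem_center_iff.mp (inv_mem hcen) y, inv_mul_cancel_left]
  obtain ⟨k, hk⟩ := CfsgLib.PGroup.dvd_choose_two (p := p) hp
  rw [CfsgLib.PGroup.mul_pow_central (h2 ▸ inv_mem hcen) p, h2, hk, pow_mul, inv_pow ⁅y, x⁆, hc', inv_one,
    one_pow, mul_one, inv_pow, e, mul_inv_cancel]

/-- Such a group is generated by at most as many elements as the rank of its elements of order `p`. -/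
theorem generated_of_central (hp : p ≠ 2) {K : Type*} [Group K] [Finite K] (hK : IsPGroup p K)
    (hZ : ∀ z : K, z ^ p = 1 → z ∈ Subgroup.center K) (a : ℕ) (hΩ : Nat.card {z : K // z ^ p = 1} ≤ p ^ a) :
    ∃ S : Finset K, S.card ≤ a ∧ Subgroup.closure (S : Set K) = ⊤ := by
  classical
  haveI : Fintype K := Fintype.ofFinite K
  set Φ := frattini K
  let r : Φ → K := fun z => if h : ∃ x : K, x ^ p = (z : K) then h.choose else 1
  have hr : ∀ x : K, (r ⟨x ^ p, CfsgLib.PGroup.pow_mem_frattini hK x⟩) ^ p = x ^ p := fun x => by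
    have h : ∃ w : K, w ^ p = x ^ p := ⟨x, rfl⟩
    simp only [r, dif_pos h]
    exact h.choose_spec
  let f : K → Φ × {z : K // z ^ p = 1} := fun x =>
    (⟨x ^ p, CfsgLib.PGroup.pow_mem_frattini hK x⟩,
      ⟨x * (r ⟨x ^ p, CfsgLib.PGroup.pow_mem_frattini hK x⟩)⁻¹, pow_eq_imp hp _ rfl hK hZ _ _ (hr x).symm⟩)
  have hf : Function.Injective f := fun x y e => by
    have e1 := congrArg Prod.fst e
    have e2 := congrArg (fun q : Φ × {z : K // z ^ p = 1} => (q.2 : K)) e
    simp only [f] at e1 e2
    rw [e1] at e2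
    exact mul_right_cancel e2
  have hcard := Nat.card_le_card_of_injective f hf
  rw [Nat.card_prod, ← Subgroup.card_mul_index Φ] at hcard
  have hidx : Φ.index ≤ p ^ a := (Nat.le_of_mul_le_mul_left hcard Nat.card_pos).trans hΩ
  obtain ⟨m, hm⟩ := IsPGroup.index hK Φ
  have hma : m ≤ a := (Nat.pow_le_pow_iff_right (Fact.out : p.Prime).one_lt).mp (hm ▸ hidx)
  obtain ⟨T, -, hT, hTg⟩ := (CfsgLib.Hall.Struct.burnside_basis p m hK hm).1 Finset.univ (by simp)
  exact ⟨T, hT ▸ hma, hTg⟩

section Uni

open Matrix Matrix.SpecialLinearGroup CfsgLib.SLn.Unip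

variable {n : ℕ}

local notation "F" => ZMod p

/-- The rank of a position above the diagonal: first the distance from the diagonal, then the row. -/
def rk (i j : Fin n) : ℕ := ((j : ℕ) - i) * n + i

theorem rk_inj {i j i' j' : Fin n} (h : i < j) (h' : i' < j') (e : rk i j = rk i' j') : i = i' ∧ j = j' := by
  have hn : 0 < n := i.pos
  have hi : (i : ℕ) = i' := by
    have := congrArg (· % n) e
    simpa [rk, Nat.mul_add_mod_self_right, Nat.mod_eq_of_lt i.2, Nat.mod_eq_of_lt i'.2] using this
  have hd : (j : ℕ) - i = (j' : ℕ) - i' := by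
    unfold rk at e
    rw [hi] at e ⊢
    exact Nat.eq_of_mul_eq_mul_right hn (Nat.add_right_cancel e)
  rw [Fin.lt_def] at h h'
  exact ⟨Fin.ext hi, Fin.ext (by omega)⟩

/-- The entries of rank less than `r` vanish. -/
def Low (r : ℕ) (g : SpecialLinearGroup (Fin n) F) : Prop :=
  g ∈ upperUni F n ∧ ∀ i j : Fin n, i < j → rk i j < r → g.1 i j = 0

theorem mul_entry_uni {g h : SpecialLinearGroup (Fin n) F} (hg : g ∈ upperUni F n) (hh : h ∈ upperUni F n)
    {i j : Fin n} (hij : i < j) :
    (g * h).1 i j = g.1 i j + h.1 i j + ∑ b ∈ Finset.Ioo i j, g.1 i b * h.1 b j := by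
  show (g.1 * h.1) i j = _
  rw [Matrix.mul_apply, ← Finset.sum_subset (Finset.subset_univ (insert i (insert j (Finset.Ioo i j))))]
  · rw [Finset.sum_insert (by simp [hij.ne]), Finset.sum_insert (by simp), hg.2 i, hh.2 j, one_mul, mul_one]
    abel
  · intro b _ hb
    simp only [Finset.mem_insert, Finset.mem_Ioo, not_or, not_and_or, not_lt] at hb
    obtain ⟨h1, h2, h3⟩ := hb
    rcases h3 with h3 | h3
    · rw [hg.1 i b (lt_of_le_of_ne h3 h1), zero_mul]
    · rw [hh.1 b j (lt_of_le_of_ne h3 (Ne.symm h2)), mul_zero]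

theorem Low.mul_apply {r : ℕ} {g h : SpecialLinearGroup (Fin n) F} (hg : Low r g) (hh : Low r h)
    {i j : Fin n} (hij : i < j) (hr : rk i j ≤ r) : (g * h).1 i j = g.1 i j + h.1 i j := by
  rw [mul_entry_uni hg.1 hh.1 hij, Finset.sum_eq_zero, add_zero]
  intro b hb
  rw [Finset.mem_Ioo] at hb
  rw [hg.2 i b hb.1 (lt_of_lt_of_le ?_ hr), zero_mul]
  unfold rk
  have h1 : (b : ℕ) - i < (j : ℕ) - i := by
    have := hb.1; have := hb.2; rw [Fin.lt_def] at *; omega
  have := Nat.mul_lt_mul_of_pos_right h1 i.pos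
  omega

/-- The subgroup of elements with vanishing entries of rank less than `r`. -/
def lowSub (r : ℕ) : Subgroup (SpecialLinearGroup (Fin n) F) :=
  { carrier := {g | Low r g}
    one_mem' := ⟨one_mem _, fun i j h _ => Matrix.one_apply_ne h.ne⟩
    mul_mem' := fun {g h} hg hh => ⟨mul_mem hg.1 hh.1, fun i j hij hr => by
      rw [hg.mul_apply hh hij hr.le, hg.2 i j hij hr, hh.2 i j hij hr, add_zero]⟩
    inv_mem' := fun {g} hg => by
      rw [inv_eq_pow]
      induction (orderOf g - 1) with
      | zero => exact ⟨one_mem _, fun i j h _ => Matrix.one_apply_ne h.ne⟩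
      | succ m ih =>
        rw [pow_succ]
        exact ⟨mul_mem ih.1 hg.1, fun i j hij hr => by
          rw [Low.mul_apply ih hg hij hr.le, ih.2 i j hij hr, hg.2 i j hij hr, add_zero]⟩ }

theorem mem_lowSub {r : ℕ} {g : SpecialLinearGroup (Fin n) F} : g ∈ lowSub r ↔ Low r g := Iff.rfl

theorem pow_apply {r : ℕ} {g : SpecialLinearGroup (Fin n) F} (hg : Low r g) {i j : Fin n} (hij : i < j)
    (hr : rk i j ≤ r) (e : ℕ) : (g ^ e).1 i j = (e : F) * g.1 i j := by
  induction e with
  | zero => simp [Matrix.one_apply_ne hij.ne]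
  | succ e ih =>
    rw [pow_succ, Low.mul_apply (mem_lowSub.1 (pow_mem (mem_lowSub.2 hg) e)) hg hij hr, ih, Nat.cast_succ]
    ring

/-- The leading entry of `g` is at `(i, j)`. -/
def Lead (g : SpecialLinearGroup (Fin n) F) (i j : Fin n) : Prop :=
  i < j ∧ Low (rk i j) g ∧ g.1 i j ≠ 0

theorem lead_commutator {g h : SpecialLinearGroup (Fin n) F} {i j l : Fin n} (hg : Lead g i j) (hh : Lead h j l) :
    Lead ⁅g, h⁆ i l := by
  obtain ⟨hij, hgl, hg0⟩ := hg
  obtain ⟨hjl, hhl, hh0⟩ := hh
  have hil := hij.trans hjl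
  have hc : ⁅g, h⁆ ∈ upperUni F n := by
    rw [commutatorElement_def]
    exact mul_mem (mul_mem (mul_mem hgl.1 hhl.1) (inv_mem hgl.1)) (inv_mem hhl.1)
  -- products in both orders
  have key : ∀ s t : Fin n, s < t → rk s t ≤ rk i l →
      (g * h).1 s t = g.1 s t + h.1 s t + (if s = i ∧ t = l then g.1 i j * h.1 j l else 0) ∧
      (h * g).1 s t = g.1 s t + h.1 s t := by
    intro s t hst hr
    have hd : ((t : ℕ) - s < (l : ℕ) - i) ∨ ((t : ℕ) - s = (l : ℕ) - i ∧ (s : ℕ) ≤ i) := by
      unfold rk at hr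
      rcases lt_trichotomy ((t : ℕ) - s) ((l : ℕ) - i) with h | h | h
      · exact Or.inl h
      · refine Or.inr ⟨h, ?_⟩; rw [h] at hr; omega
      · exfalso
        have h1 := Nat.mul_le_mul_right n (Nat.succ_le_of_lt h)
        rw [Nat.succ_mul] at h1
        have := i.2
        omega
    have lowg : ∀ u v : Fin n, u < v → ((v : ℕ) - u < (j : ℕ) - i ∨ ((v : ℕ) - u = (j : ℕ) - i ∧ (u : ℕ) < i)) →
        g.1 u v = 0 := fun u v huv hh' => hgl.2 u v huv (by
      unfold rk
      rcases hh' with h1 | ⟨h1, h2⟩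
      · have := Nat.mul_le_mul_right n (Nat.succ_le_of_lt h1)
        rw [Nat.succ_mul] at this
        have := u.2
        omega
      · rw [h1]; omega)
    have lowh : ∀ u v : Fin n, u < v → ((v : ℕ) - u < (l : ℕ) - j ∨ ((v : ℕ) - u = (l : ℕ) - j ∧ (u : ℕ) < j)) →
        h.1 u v = 0 := fun u v huv hh' => hhl.2 u v huv (by
      unfold rk
      rcases hh' with h1 | ⟨h1, h2⟩
      · have := Nat.mul_le_mul_right n (Nat.succ_le_of_lt h1)
        rw [Nat.succ_mul] at this
        have := u.2
        omega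
      · rw [h1]; omega)
    rw [Fin.lt_def] at hij hjl hil hst
    constructor
    · rw [mul_entry_uni hgl.1 hhl.1 (Fin.lt_def.2 hst)]
      congr 1
      by_cases he : s = i ∧ t = l
      · obtain ⟨rfl, rfl⟩ := he
        rw [if_pos ⟨rfl, rfl⟩, Finset.sum_eq_single j]
        · intro b hb hbj
          rw [Finset.mem_Ioo, Fin.lt_def, Fin.lt_def] at hb
          have : (b : ℕ) ≠ j := fun e => hbj (Fin.ext e)
          rcases Nat.lt_or_gt_of_ne this with h' | h'
          · rw [lowg _ b (Fin.lt_def.2 hb.1) (Or.inl (by omega)), zero_mul]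
          · rw [lowh b _ (Fin.lt_def.2 hb.2) (Or.inl (by omega)), mul_zero]
        · intro hj
          exact absurd (Finset.mem_Ioo.2 ⟨Fin.lt_def.2 hij, Fin.lt_def.2 hjl⟩) hj
      · rw [if_neg he]
        refine Finset.sum_eq_zero fun b hb => ?_
        rw [Finset.mem_Ioo, Fin.lt_def, Fin.lt_def] at hb
        by_cases h1 : ((b : ℕ) - s < (j : ℕ) - i ∨ ((b : ℕ) - s = (j : ℕ) - i ∧ (s : ℕ) < i))
        · rw [lowg s b (Fin.lt_def.2 hb.1) h1, zero_mul]
        · rw [lowh b t (Fin.lt_def.2 hb.2) ?_, mul_zero]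
          simp only [not_or, not_and, not_lt] at h1
          have h3 : ¬ ((s : ℕ) = i ∧ (t : ℕ) = l) := fun e => he ⟨Fin.ext e.1, Fin.ext e.2⟩
          omega
    · rw [mul_entry_uni hhl.1 hgl.1 (Fin.lt_def.2 hst), add_comm (h.1 s t), add_eq_left]
      refine Finset.sum_eq_zero fun b hb => ?_
      rw [Finset.mem_Ioo, Fin.lt_def, Fin.lt_def] at hb
      by_cases h1 : ((b : ℕ) - s < (l : ℕ) - j ∨ ((b : ℕ) - s = (l : ℕ) - j ∧ (s : ℕ) < j))
      · rw [lowh s b (Fin.lt_def.2 hb.1) h1, zero_mul]
      · rw [lowg b t (Fin.lt_def.2 hb.2) ?_, mul_zero]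
        simp only [not_or, not_and, not_lt] at h1
        omega
  have hprod : ⁅g, h⁆ * (h * g) = g * h := by rw [commutatorElement_def]; group
  have hlow : ∀ r, r ≤ rk i l → Low r ⁅g, h⁆ := by
    intro r
    induction r with
    | zero => exact fun _ => ⟨hc, fun _ _ _ h => absurd h (Nat.not_lt_zero _)⟩
    | succ r ih =>
      intro hr
      have hlo := ih (Nat.le_of_succ_le hr)
      refine ⟨hc, fun s t hst hrr => ?_⟩
      rcases Nat.lt_succ_iff_lt_or_eq.1 hrr with h' | h'
      · exact hlo.2 s t hst h'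
      · have e : (⁅g, h⁆ * (h * g)).1 s t = (g * h).1 s t := by rw [hprod]
        have hX := key s t hst (by omega)
        rw [mul_entry_uni hc (mul_mem hhl.1 hgl.1) hst, hX.1, hX.2, if_neg (fun e' => by
          obtain ⟨rfl, rfl⟩ := e'; omega), Finset.sum_eq_zero, add_zero, add_zero, add_eq_right] at e
        · exact e
        · intro b hb
          rw [Finset.mem_Ioo] at hb
          rw [hlo.2 s b hb.1 ?_, zero_mul]
          rw [← h']
          unfold rk
          have h1 : (b : ℕ) - s < (t : ℕ) - s := by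
            have := hb.1; have := hb.2; rw [Fin.lt_def] at *; omega
          have := Nat.mul_lt_mul_of_pos_right h1 s.pos
          omega
  have hlo := hlow _ le_rfl
  refine ⟨hil, hlo, ?_⟩
  have e : (⁅g, h⁆ * (h * g)).1 i l = (g * h).1 i l := by rw [hprod]
  have hX := key i l hil le_rfl
  rw [mul_entry_uni hc (mul_mem hhl.1 hgl.1) hil, hX.1, hX.2, if_pos ⟨rfl, rfl⟩, Finset.sum_eq_zero, add_zero] at e
  · intro h0
    rw [h0, zero_add, left_eq_add] at e
    exact mul_ne_zero hg0 hh0 e
  · intro b hb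
    rw [Finset.mem_Ioo] at hb
    rw [hlo.2 i b hb.1 ?_, zero_mul]
    unfold rk
    have h1 : (b : ℕ) - i < (l : ℕ) - i := by
      have := hb.1; have := hb.2; rw [Fin.lt_def] at *; omega
    have := Nat.mul_lt_mul_of_pos_right h1 i.pos
    omega

/-- A subgroup of the unitriangular group of dimension `n` needs at most `n²/4` generators. -/
theorem generated_uni (H : Subgroup (SpecialLinearGroup (Fin n) F)) (hH : H ≤ upperUni F n) :
    ∃ S : Finset (SpecialLinearGroup (Fin n) F), S.card ≤ n ^ 2 / 4 ∧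
      Subgroup.closure (S : Set (SpecialLinearGroup (Fin n) F)) = H := by
  classical
  let L : Fin n → Fin n → Prop := fun i j => ∃ g ∈ H, Lead g i j
  let I : Finset (Fin n × Fin n) :=
    Finset.univ.filter fun q => L q.1 q.2 ∧ ¬ ∃ b, L q.1 b ∧ L b q.2
  let pick : Fin n × Fin n → SpecialLinearGroup (Fin n) F := fun q =>
    if h : L q.1 q.2 then h.choose else 1
  have hpick : ∀ q, L q.1 q.2 → pick q ∈ H ∧ Lead (pick q) q.1 q.2 := fun q h => by
    simp only [pick, dif_pos h]
    exact h.choose_spec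
  set K := Subgroup.closure ((I.image pick : Finset _) : Set (SpecialLinearGroup (Fin n) F))
  have hKH : K ≤ H := (Subgroup.closure_le _).2 fun x hx => by
    rw [Finset.coe_image] at hx
    obtain ⟨q, hq, rfl⟩ := hx
    exact (hpick q (Finset.mem_filter.1 hq).2.1).1
  have hach : ∀ d, ∀ i j : Fin n, (j : ℕ) - i = d → L i j → ∃ k ∈ K, Lead k i j := by
    intro d
    induction d using Nat.strong_induction_on with
    | _ d ih =>
    intro i j hd hL
    by_cases hdec : ∃ b, L i b ∧ L b j
    · obtain ⟨b, hb1, hb2⟩ := hdec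
      have h1 : i < b := hb1.choose_spec.2.1
      have h2 : b < j := hb2.choose_spec.2.1
      rw [Fin.lt_def] at h1 h2
      obtain ⟨k1, hk1, hl1⟩ := ih _ (by omega) i b rfl hb1
      obtain ⟨k2, hk2, hl2⟩ := ih _ (by omega) b j rfl hb2
      refine ⟨⁅k1, k2⁆, ?_, lead_commutator hl1 hl2⟩
      rw [commutatorElement_def]
      exact mul_mem (mul_mem (mul_mem hk1 hk2) (inv_mem hk1)) (inv_mem hk2)
    · refine ⟨pick (i, j), Subgroup.subset_closure ?_, (hpick (i, j) hL).2⟩
      rw [Finset.coe_image]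
      exact ⟨(i, j), Finset.mem_filter.2 ⟨Finset.mem_univ _, hL, hdec⟩, rfl⟩
  have hall : ∀ m r, r + m = n * n + 1 → ∀ g ∈ H, Low r g → g ∈ K := by
    intro m
    induction m with
    | zero =>
      intro r hr g hg hlo
      have : g = 1 := by
        refine Subtype.ext (Matrix.ext fun s t => ?_)
        by_cases hts : t ≤ s
        · exact upperUni_off hlo.1 hts
        · rw [not_le] at hts
          rw [hlo.2 s t hts ?_]
          · exact (Matrix.one_apply_ne hts.ne).symm
          · unfold rk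
            have h1 := s.2
            have h2 := t.2
            have : ((t : ℕ) - s + 1) * n ≤ n * n := Nat.mul_le_mul_right n (by omega)
            rw [add_mul, one_mul] at this
            omega
      rw [this]; exact one_mem K
    | succ m ih =>
      intro r hr g hg hlo
      by_cases hpos : ∃ s t : Fin n, s < t ∧ rk s t = r ∧ g.1 s t ≠ 0
      · obtain ⟨s, t, hst, hrk, hne⟩ := hpos
        obtain ⟨k, hk, -, hklo, hk0⟩ := hach _ s t rfl ⟨g, hg, hst, hrk ▸ hlo, hne⟩
        rw [hrk] at hklo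
        set e := (g.1 s t / k.1 s t).val
        have hke : (k ^ e).1 s t = g.1 s t := by
          rw [pow_apply hklo hst hrk.le, ZMod.natCast_zmod_val, div_mul_cancel₀ _ hk0]
        have hlo' : Low r (g * (k ^ e)⁻¹) :=
          mem_lowSub.1 (mul_mem (mem_lowSub.2 hlo) (inv_mem (pow_mem (mem_lowSub.2 hklo) e)))
        have hlo2 : Low (r + 1) (g * (k ^ e)⁻¹) := by
          refine ⟨hlo'.1, fun u v huv hr' => ?_⟩
          rcases Nat.lt_succ_iff_lt_or_eq.1 hr' with h' | h'
          · exact hlo'.2 u v huv h'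
          · obtain ⟨rfl, rfl⟩ := rk_inj huv hst (h'.trans hrk.symm)
            have := Low.mul_apply hlo' (mem_lowSub.1 (pow_mem (mem_lowSub.2 hklo) e)) huv hrk.le
            rw [inv_mul_cancel_right, hke, right_eq_add] at this
            exact this
        have := mul_mem (ih (r + 1) (by omega) _ (mul_mem hg (inv_mem (pow_mem (hKH hk) e))) hlo2) (pow_mem hk e)
        rwa [inv_mul_cancel_right] at this
      · refine ih (r + 1) (by omega) g hg ⟨hlo.1, fun u v huv hr' => ?_⟩
        rcases Nat.lt_succ_iff_lt_or_eq.1 hr' with h' | h'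
        · exact hlo.2 u v huv h'
        · by_contra h0
          exact hpos ⟨u, v, huv, h', h0⟩
  refine ⟨I.image pick, ?_, le_antisymm hKH fun g hg => hall (n * n + 1) 0 (by omega) g hg
    ⟨hH hg, fun _ _ _ h => absurd h (Nat.not_lt_zero _)⟩⟩
  -- counting: the indecomposable positions form a triangle free graph
  refine Finset.card_image_le.trans ?_
  let Γ : SimpleGraph (Fin n) := SimpleGraph.fromRel fun s t => (s, t) ∈ I
  have hI : ∀ q ∈ I, q.1 < q.2 := fun q hq => (Finset.mem_filter.1 hq).2.1.choose_spec.2.1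
  have hfree : Γ.CliqueFree (2 + 1) := by
    intro s hs
    obtain ⟨hclique, hcard⟩ := (SimpleGraph.isNClique_iff Γ).1 hs
    have hedge : ∀ u ∈ s, ∀ v ∈ s, u < v → (u, v) ∈ I := by
      intro u hu v hv huv
      have := hclique hu hv huv.ne
      rw [SimpleGraph.fromRel_adj] at this
      rcases this.2 with h | h
      · exact h
      · exact absurd (hI _ h) (not_lt.2 huv.le)
    let e := s.orderEmbOfFin hcard
    have h01 : e 0 < e 1 := e.strictMono (by decide)
    have h12 : e 1 < e 2 := e.strictMono (by decide)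
    have hm := fun i => s.orderEmbOfFin_mem hcard i
    exact (Finset.mem_filter.1 (hedge _ (hm 0) _ (hm 2) (h01.trans h12))).2.2 ⟨e 1,
      (Finset.mem_filter.1 (hedge _ (hm 0) _ (hm 1) h01)).2.1, (Finset.mem_filter.1 (hedge _ (hm 1) _ (hm 2) h12)).2.1⟩
  have hle : I.card ≤ Γ.edgeFinset.card := by
    refine Finset.card_le_card_of_injOn (fun q => s(q.1, q.2)) (fun q hq => ?_) fun q hq q' hq' e => ?_
    · rw [Finset.mem_coe, SimpleGraph.mem_edgeFinset, SimpleGraph.mem_edgeSet, SimpleGraph.fromRel_adj]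
      exact ⟨(hI q hq).ne, Or.inl hq⟩
    · rcases Sym2.eq_iff.1 e with ⟨h1, h2⟩ | ⟨h1, h2⟩
      · exact Prod.ext h1 h2
      · exact absurd (hI q' hq') (not_lt.2 (h1 ▸ h2 ▸ hI q hq).le)
  refine hle.trans (hfree.card_edgeFinset_le.trans ?_)
  simp only [Fintype.card_fin]
  rcases Nat.mod_two_eq_zero_or_one n with h | h <;> rw [h] <;> norm_num [Nat.choose]
  omega

end Uni

/-- A `p`-group acting on a finite module is unitriangular in a suitable basis. -/
theorem exists_uni_module {P : Type*} [Group P] [Finite P] (hP : IsPGroup p P) {V : Type*} [AddCommGroup V]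
    [Module (ZMod p) V] [Finite V] (a : ℕ) (ha : Nat.card V = p ^ a) (L : P → V →ₗ[ZMod p] V)
    (hL1 : L 1 = LinearMap.id) (hLmul : ∀ g h, L (g * h) = (L g).comp (L h)) :
    ∃ f : P →* Matrix.SpecialLinearGroup (Fin a) (ZMod p),
      f.range ≤ CfsgLib.SLn.Unip.upperUni (ZMod p) a ∧ ∀ g, f g = 1 ↔ L g = LinearMap.id := by
  classical
  haveI : Module.Finite (ZMod p) V := Module.Finite.of_finite
  have hd : Module.finrank (ZMod p) V = a := by
    have := Module.natCard_eq_pow_finrank (K := ZMod p) (V := V)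
    rw [ha, Nat.card_zmod] at this
    exact (Nat.pow_right_injective (Fact.out : p.Prime).two_le this).symm
  let b := Module.finBasisOfFinrankEq (ZMod p) V hd
  let M : P →* Matrix (Fin a) (Fin a) (ZMod p) :=
    { toFun := fun g => LinearMap.toMatrix b b (L g)
      map_one' := by rw [hL1, LinearMap.toMatrix_id]
      map_mul' := fun g h => by rw [hLmul, LinearMap.toMatrix_comp b b b] }
  have hdet : ∀ g, (M g).det = 1 := by
    intro g
    obtain ⟨k, hk⟩ := hP g
    have h1 : (M g).det ^ p ^ k = 1 := by rw [← Matrix.det_pow, ← map_pow, hk, map_one, Matrix.det_one]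
    rwa [ZMod.pow_card_pow] at h1
  let f₀ : P →* Matrix.SpecialLinearGroup (Fin a) (ZMod p) :=
    { toFun := fun g => ⟨M g, hdet g⟩
      map_one' := Subtype.ext (map_one M)
      map_mul' := fun g h => Subtype.ext (map_mul M g h) }
  obtain ⟨Q, hQ⟩ := (hP.of_surjective f₀.rangeRestrict f₀.rangeRestrict_surjective).exists_le_sylow
  obtain ⟨U, hU⟩ := CfsgLib.SLn.Unip.exists_sylow_eq_upperUni (K := ZMod p) (n := a) p
  obtain ⟨c, hc⟩ := MulAction.exists_smul_eq (Matrix.SpecialLinearGroup (Fin a) (ZMod p)) Q U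
  refine ⟨(MulAut.conj c).toMonoidHom.comp f₀, ?_, fun g => ?_⟩
  · rw [← hU, ← hc, Sylow.coe_subgroup_smul, MonoidHom.range_comp]
    rintro _ ⟨y, hy, rfl⟩
    exact Subgroup.smul_mem_pointwise_smul y (MulAut.conj c) _ (hQ hy)
  · rw [MonoidHom.comp_apply]
    refine (MulAut.conj c).map_eq_one_iff.trans ?_
    constructor
    · intro e
      exact (LinearMap.toMatrix b b).injective ((congrArg Subtype.val e).trans (LinearMap.toMatrix_id b).symm)
    · intro e
      refine Subtype.ext ?_
      show LinearMap.toMatrix b b (L g) = _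
      rw [e, LinearMap.toMatrix_id]; rfl

/-- A finite elementary abelian normal subgroup gives a map into a unitriangular group with kernel its centralizer. -/
theorem exists_uni_hom {P : Type*} [Group P] [Finite P] (hP : IsPGroup p P) (A : Subgroup P) [A.Normal]
    (hA : Cfsg.IsElementaryAbelian p A) (a : ℕ) (ha : Nat.card A = p ^ a) :
    ∃ f : P →* Matrix.SpecialLinearGroup (Fin a) (ZMod p),
      f.range ≤ CfsgLib.SLn.Unip.upperUni (ZMod p) a ∧ f.ker = Subgroup.centralizer (A : Set P) := by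
  letI : CommGroup A := { (inferInstance : Group A) with
    mul_comm := fun x y => hA.1.is_comm.comm x y }
  letI mA : Module (ZMod p) (Additive A) := AddCommGroup.zmodModule fun x => by
    apply Additive.toMul.injective
    rw [toMul_nsmul, toMul_zero]
    exact Subtype.ext (hA.2 _ (Additive.toMul x).2)
  obtain ⟨f, hr, hf⟩ := exists_uni_module hP (V := Additive A) a (by rw [Nat.card_congr (Additive.toMul (α := A)), ha])
    (fun g => (MonoidHom.toAdditive (MulAut.conjNormal g : MulAut A).toMonoidHom).toZModLinearMap p)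
    (LinearMap.ext fun x => Additive.toMul.injective (Subtype.ext (by simp)))
    (fun g h => LinearMap.ext fun x => Additive.toMul.injective (Subtype.ext (by simp [mul_assoc])))
  refine ⟨f, hr, ?_⟩
  ext g
  rw [MonoidHom.mem_ker, hf, Subgroup.mem_centralizer_iff]
  constructor
  · intro e x hx
    have h3 := congrArg (fun l => ((Additive.toMul (l (Additive.ofMul (⟨x, hx⟩ : A))) : A) : P))
      (LinearMap.ext_iff.1 e |> fun h => funext h)
    simp [MulAut.conjNormal_apply] at h3
    exact (mul_inv_eq_iff_eq_mul.mp h3).symm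
  · intro hg
    refine LinearMap.ext fun x => Additive.toMul.injective (Subtype.ext ?_)
    simp [MulAut.conjNormal_apply]
    rw [← hg _ (Additive.toMul x).2, mul_inv_cancel_right]

end CfsgLib.PRankBound
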